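import Cfsg.Agent.H778.EP.OmAsm
import Cfsg.Agent.H567.EP.Om
import Cfsg.Agent.H371.EP.OmPointRow
import Cfsg.Agent.H112.OC2.Final
import Cfsg.Agent.H807.EP.OmPair
import Cfsg.Agent.H96.C5.OmRow
import Cfsg.Agent.H491.EP.OmC6
import Cfsg.Agent.H681.EP.OmC3Asm
import Cfsg.Agent.H487.EP.OmC4
import Cfsg.Agent.H487.EP.OmC7
import Cfsg.Agent.H571.EP.OmC3Q

/-!
# S3499-III: `OrthNonRes`
-/

set_option autoImplicit false

namespace Cfsg.Agent.H91.EP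

open Subgroup Cfsg.Agent.H284 Cfsg.Agent.H419.EP Cfsg.Agent.H778.EP QuadraticMap

/-- [Om-C6] -/
theorem omC6 : OmC6 := by
  rintro Q _ _ hs A Γ h F _ _ ι _ _ Qf m h7 hQ
    ⟨hirr, r, j, R, hRA, hRn, _, habs, hR, hchar, _, hcard, hc, ht, _⟩
  exact Cfsg.Agent.H491.EP.om_c6 h hQ h7 m hRA hRn habs hR hchar hcard hc ht

/-- `OrthNonRes` from the rows C3, C4, C7 -/
theorem orthNonRes_of_rest (hC3 : OmC3) (hC4 : OmC4) (hC7 : OmC7) : OrthNonRes :=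
  @orthNonRes_of @Cfsg.Agent.H567.EP.omRed @Cfsg.Agent.H371.EP.omPoint @Cfsg.Agent.H112.OC2.omC2
    @Cfsg.Agent.H807.EP.omC2t2 @Cfsg.Agent.H807.EP.omC2b @hC3 @hC4 @Cfsg.Agent.H96.C5.omC5 @omC6 @hC7

/-- [Om-C3] -/
theorem omC3 : OmC3 := by
  exact @Cfsg.Agent.H681.EP.omC3_of @Cfsg.Agent.H571.EP.omC3Q

/-- **The geometric layer of the orthogonal groups.** -/
theorem orthNonRes : OrthNonRes := by
  exact @orthNonRes_of_rest @omC3 (@Cfsg.Agent.H487.EP.omC4 @Cfsg.Agent.H807.EP.omC2b @omC3)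
    @Cfsg.Agent.H487.EP.omC7

end Cfsg.Agent.H91.EP
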